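import Mathlib

/-!
A group `Q ⋊ ⟨y⟩` with `y` of prime order fixed-point-free on `Q` cannot act on an abelian group with `y`
fixed-point-free and some element of `Q` fixed-point-free, unless the order of `Q` kills the module.
-/

set_option autoImplicit false

open Finset

namespace CfsgLib.CPOutside

theorem pow_card_eq_one {G V : Type*} [Group G] [Finite G] [CommGroup V] (ρ : G →* MulAut V)
    (Q : Subgroup G) (y : G) {s : ℕ} (hs : s.Prime) (hy : y ^ s = 1) (hyQ : ∀ u ∈ Q, y * u * y⁻¹ ∈ Q)
    (hQ : ∀ u ∈ Q, y * u * y⁻¹ = u → u = 1) (hyV : ∀ v : V, ρ y v = v → v = 1)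
    {u0 : G} (hu0 : u0 ∈ Q) (hu0V : ∀ v : V, ρ u0 v = v → v = 1) (v : V) : v ^ Nat.card Q = 1 := by
  classical
  haveI : Fintype Q := Fintype.ofFinite Q
  obtain ⟨m, rfl⟩ : ∃ m, s = m + 1 := ⟨s - 1, by have := hs.one_lt; omega⟩
  -- the orbit product of `y` is trivial
  have hnorm : ∀ w : V, ∏ i ∈ range (m + 1), ρ (y ^ i) w = 1 := fun w => by
    apply hyV
    rw [map_prod]
    have e : ∀ i, ρ y (ρ (y ^ i) w) = ρ (y ^ (i + 1)) w := fun i => by
      rw [← MulAut.mul_apply, ← map_mul, ← pow_succ']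
    simp only [e]
    have h1 := Finset.prod_range_succ' (fun i => ρ (y ^ i) w) (m + 1)
    have h2 := Finset.prod_range_succ (fun i => ρ (y ^ i) w) (m + 1)
    simp only [hy, pow_zero, map_one, MulAut.one_apply] at h1 h2
    exact mul_right_cancel (h1.symm.trans h2)
  -- conjugating by `g ∈ Q`
  have hconj : ∀ g : Q, ∏ i ∈ range (m + 1), ρ ((g : G) * y ^ i * (g : G)⁻¹) v = 1 := fun g => by
    simp only [map_mul, MulAut.mul_apply]
    rw [← map_prod, hnorm, map_one]
  -- the non-trivial powers
  have hQpow : ∀ (i : ℕ), ∀ u ∈ Q, y ^ i * u * (y ^ i)⁻¹ ∈ Q := by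
    intro i
    induction i with
    | zero => intro u hu; simpa using hu
    | succ i ih =>
      intro u hu
      have := hyQ _ (ih u hu)
      simpa [pow_succ', mul_assoc] using this
  have hterm : ∀ i ∈ range m, ∏ g : Q, ρ ((g : G) * y ^ (i + 1) * (g : G)⁻¹) v = 1 := by
    intro i hi
    set c := y ^ (i + 1) with hc
    let f : Q → Q := fun g => ⟨(g : G) * (c * (g : G)⁻¹ * c⁻¹),
      mul_mem g.2 (hQpow _ _ (inv_mem g.2))⟩
    have hf : Function.Bijective f := by
      refine (Finite.injective_iff_bijective).mp fun g k e => ?_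
      have e1 : (g : G) * (c * (g : G)⁻¹ * c⁻¹) = (k : G) * (c * (k : G)⁻¹ * c⁻¹) := congrArg Subtype.val e
      set d : G := (k : G)⁻¹ * g with hd
      have hdQ : d ∈ Q := mul_mem (inv_mem k.2) g.2
      have hdc : Commute d c := by
        have := congrArg (fun z => (k : G)⁻¹ * z * c * g) e1
        simp only [mul_assoc, inv_mul_cancel_left, inv_mul_cancel, mul_one] at this
        rw [Commute, SemiconjBy, hd, mul_assoc]
        exact this
      have hdy : Commute d y := by
        have hlt : i + 1 < m + 1 := by have := Finset.mem_range.mp hi; omega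
        have hcop : Nat.Coprime (m + 1) (i + 1) :=
          (hs.coprime_iff_not_dvd).mpr fun hdvd => by have := Nat.le_of_dvd (Nat.succ_pos i) hdvd; omega
        obtain ⟨k', -, hk'⟩ := Nat.exists_mul_mod_eq_one_of_coprime hcop.symm hs.one_lt
        have : y = c ^ k' := by
          rw [hc, ← pow_mul, pow_eq_pow_mod _ hy, hk', pow_one]
        rw [this]
        exact hdc.pow_right k'
      have : d = 1 := hQ d hdQ (by rw [← hdy.eq, mul_inv_cancel_right])
      exact Subtype.ext (inv_mul_eq_one.mp this).symm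
    have e : ∀ g : Q, ρ ((g : G) * c * (g : G)⁻¹) v = ρ (f g : G) (ρ c v) := fun g => by
      rw [← MulAut.mul_apply, ← map_mul]
      congr 2
      show (g : G) * c * (g : G)⁻¹ = (g : G) * (c * (g : G)⁻¹ * c⁻¹) * c
      group
    simp only [e]
    rw [hf.prod_comp fun g : Q => ρ (g : G) (ρ c v)]
    apply hu0V
    rw [map_prod]
    refine Fintype.prod_equiv (Equiv.mulLeft (⟨u0, hu0⟩ : Q)) _ _ fun g => ?_
    rw [← MulAut.mul_apply, ← map_mul]
    rfl
  have htot : ∏ g : Q, ∏ i ∈ range (m + 1), ρ ((g : G) * y ^ i * (g : G)⁻¹) v = 1 :=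
    Finset.prod_eq_one fun g _ => hconj g
  rw [Finset.prod_comm, Finset.prod_range_succ', Finset.prod_eq_one hterm, one_mul] at htot
  simpa [Finset.prod_const, Finset.card_univ, Nat.card_eq_fintype_card] using htot

end CfsgLib.CPOutside
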