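import Mathlib
import Cfsg.Agent.CPOutside.Fpf
import Cfsg.Agent.CharBasics.Burnside
import Cfsg.Agent.Transfer.Frobenius

/-!
All elements outside a nonsolvable normal subgroup have prime power order: the quotient is solvable
(in fact a group of prime power order).
-/

set_option autoImplicit false

namespace CfsgLib.CPOutside

universe u

variable {G : Type u} [Group G] [Finite G]

theorem mem_of_pow_mem {X : Type*} [Group X] {K : Subgroup X} {a : X} {n : ℕ} (hn : n.Coprime (orderOf a))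
    (h : a ^ n ∈ K) : a ∈ K := by
  obtain ⟨m, hm⟩ := exists_pow_eq_self_of_coprime hn
  exact hm ▸ pow_mem h m

theorem mixed {N : Subgroup G} [N.Normal] (h : ∀ x : G, x ∉ N → IsPrimePow (orderOf x)) {p l i j : ℕ}
    (hp : p.Prime) (hl : l.Prime) (hpl : p ≠ l) {a b : G} (ha : a ∉ N) (hao : orderOf a = p ^ i)
    (hbo : orderOf b = l ^ j) (hc : Commute a b) : b = 1 := by
  have hcop : (orderOf a).Coprime (orderOf b) := by
    rw [hao, hbo]; exact Nat.Coprime.pow _ _ ((Nat.coprime_primes hp hl).mpr hpl)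
  have hab : a * b ∉ N := by
    intro hm
    apply ha
    have h1 : a ^ orderOf b ∈ N := by
      have := pow_mem hm (orderOf b)
      rwa [hc.mul_pow, pow_orderOf_eq_one, mul_one] at this
    exact mem_of_pow_mem hcop.symm h1
  obtain ⟨r, k, hr, hk, he⟩ := (isPrimePow_nat_iff _).mp (h _ hab)
  rw [hc.orderOf_mul_eq_mul_orderOf_of_coprime hcop, hao, hbo] at he
  by_contra hb
  have hj : j ≠ 0 := fun e => hb (orderOf_eq_one_iff.mp (by rw [hbo, e, pow_zero]))
  have hi : i ≠ 0 := fun e => ha (by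
    have e1 : a = 1 := orderOf_eq_one_iff.mp (by rw [hao, e, pow_zero])
    rw [e1]; exact N.one_mem)
  have d1 : p ∣ r := hp.dvd_of_dvd_pow (he ▸ (dvd_pow_self p hi).trans (dvd_mul_right _ _))
  have d2 : l ∣ r := hl.dvd_of_dvd_pow (he ▸ (dvd_pow_self l hj).trans (dvd_mul_left _ _))
  exact hpl (((Nat.prime_dvd_prime_iff_eq hp hr).mp d1).trans ((Nat.prime_dvd_prime_iff_eq hl hr).mp d2).symm)

/-- In the quotient no non-trivial `q`-subgroup is normalised by an element of another prime order. -/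
theorem no_normalise {N : Subgroup G} [N.Normal] (hns : ¬ Group.IsSolvable N)
    (h : ∀ x : G, x ∉ N → IsPrimePow (orderOf x)) {q s : ℕ} [hq : Fact q.Prime] [hs : Fact s.Prime]
    (hqs : q ≠ s) {T : Subgroup (G ⧸ N)} (hT : IsPGroup q T) (hT1 : T ≠ ⊥) {x : G ⧸ N}
    (hx : orderOf x = s) (hxT : x ∈ Subgroup.normalizer (T : Set (G ⧸ N))) : False := by
  classical
  -- a third prime
  obtain ⟨r, hr, hrN, hrq, hrs⟩ : ∃ r : ℕ, r.Prime ∧ r ∣ Nat.card N ∧ r ≠ q ∧ r ≠ s := by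
    by_contra hc
    push Not at hc
    exact hns (CfsgLib.CharBasics.isSolvable_two_primes q s fun r hr hd => by
      by_cases e : r = q
      · exact Or.inl e
      · exact Or.inr (hc r hr hd e))
  haveI : Fact r.Prime := ⟨hr⟩
  obtain ⟨R₀⟩ := (inferInstance : Nonempty (Sylow r N))
  set R : Subgroup G := (R₀ : Subgroup N).map N.subtype with hR
  set H : Subgroup G := Subgroup.normalizer (R : Set G) with hH
  have hHN : H ⊔ N = ⊤ := Sylow.normalizer_sup_eq_top R₀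
  set φ : G →* G ⧸ N := QuotientGroup.mk' N
  have hlift : ∀ z : G ⧸ N, ∃ g ∈ H, φ g = z := fun z => by
    obtain ⟨g, rfl⟩ := QuotientGroup.mk'_surjective N z
    have hg : g ∈ H ⊔ N := hHN ▸ Subgroup.mem_top g
    obtain ⟨a, ha, b, hb, rfl⟩ := Subgroup.mem_sup_of_normal_right.mp hg
    refine ⟨a, ha, ?_⟩
    show φ a = φ (a * b)
    rw [map_mul, (QuotientGroup.eq_one_iff b).mpr hb |> (fun e => (show φ b = 1 from e)), mul_one]
  set U : Subgroup G := H ⊓ T.comap φ with hU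
  -- a `q`-element of `U` outside `N`
  obtain ⟨t, htT, ht1⟩ := (T.ne_bot_iff_exists_ne_one.mp hT1 |> fun ⟨a, ha⟩ =>
    (⟨a.1, a.2, fun e => ha (Subtype.ext e)⟩ : ∃ t ∈ T, t ≠ 1))
  obtain ⟨g₁, hg₁H, hg₁⟩ := hlift t
  obtain ⟨k₁, hk₁⟩ := hT ⟨t, htT⟩
  replace hk₁ : t ^ q ^ k₁ = 1 := congrArg Subtype.val hk₁
  have hm₁ := Nat.ordProj_mul_ordCompl_eq_self (orderOf g₁) q
  set m₁ := orderOf g₁ / q ^ (orderOf g₁).factorization q
  set a := g₁ ^ m₁ with ha
  have haq : a ^ q ^ (orderOf g₁).factorization q = 1 := by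
    rw [ha, ← pow_mul, mul_comm, hm₁, pow_orderOf_eq_one]
  have hqm : ¬ q ∣ m₁ := Nat.not_dvd_ordCompl hq.out (orderOf_pos g₁).ne'
  have haN : φ a ≠ 1 := by
    rw [ha, map_pow, hg₁]
    intro e
    apply ht1
    have hcop : (q ^ k₁).Coprime m₁ := Nat.Coprime.pow_left _ ((hq.out.coprime_iff_not_dvd).mpr hqm)
    simpa using pow_gcd_eq_one.mpr ⟨hk₁, e⟩ |> fun e' => (by rw [hcop.gcd_eq_one] at e'; exact e' : t ^ 1 = 1)
  have haU : a ∈ U := ⟨pow_mem hg₁H _, by
    show φ a ∈ T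
    rw [ha, map_pow, hg₁]; exact pow_mem htT _⟩
  have haP : IsPGroup q (Subgroup.zpowers (⟨a, haU⟩ : U)) := by
    obtain ⟨i, -, hi⟩ := (Nat.dvd_prime_pow hq.out).mp (orderOf_dvd_of_pow_eq_one haq)
    refine IsPGroup.of_card (n := i) ?_
    rw [Nat.card_zpowers, Subgroup.orderOf_mk, hi]
  obtain ⟨Q₀, hQ₀⟩ := haP.exists_le_sylow
  set Q : Subgroup G := (Q₀ : Subgroup U).map U.subtype with hQ
  have haQ : a ∈ Q := ⟨⟨a, haU⟩, hQ₀ (Subgroup.mem_zpowers _), rfl⟩
  have hQp : IsPGroup q Q := Q₀.isPGroup'.map _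
  have hQU : Q ≤ U := Subgroup.map_subtype_le _
  -- an element of `H` normalising `Q` over `x`
  obtain ⟨g₂, hg₂H, hg₂⟩ := hlift x
  have hg₂U : g₂ ∈ Subgroup.normalizer (U : Set G) := by
    rw [Subgroup.mem_normalizer_iff]
    intro z
    show (z ∈ H ∧ φ z ∈ T) ↔ (g₂ * z * g₂⁻¹ ∈ H ∧ φ (g₂ * z * g₂⁻¹) ∈ T)
    rw [map_mul, map_mul, map_inv, hg₂, ← (Subgroup.mem_normalizer_iff.mp hxT (φ z))]
    constructor
    · rintro ⟨h1, h2⟩; exact ⟨mul_mem (mul_mem hg₂H h1) (inv_mem hg₂H), h2⟩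
    · rintro ⟨h1, h2⟩
      exact ⟨by simpa [mul_assoc] using mul_mem (mul_mem (inv_mem hg₂H) h1) hg₂H, h2⟩
  set ψ : MulAut U := Subgroup.normalizerMonoidHom U ⟨g₂, hg₂U⟩ with hψ
  obtain ⟨c, hc⟩ := MulAction.exists_smul_eq U Q₀ (ψ • Q₀)
  set y₀ : G := (c : G)⁻¹ * g₂ with hy₀
  have hy₀Q : y₀ ∈ Subgroup.normalizer (Q : Set G) := by
    refine Subgroup.mem_normalizer_fintype (S := (Q : Set G)) ?_
    rintro _ ⟨z, hz, rfl⟩
    have h1 : ψ z ∈ ((ψ • Q₀ : Sylow q U) : Subgroup U) := by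
      rw [Sylow.pointwise_smul_def]; exact Subgroup.smul_mem_pointwise_smul z ψ _ hz
    rw [← hc] at h1
    refine ⟨c⁻¹ * ψ z * c, CfsgLib.Transfer.mem_smul_sylow_iff.mp h1, ?_⟩
    simp [hψ, hy₀, mul_assoc]
  have hy₀H : y₀ ∈ H := mul_mem (inv_mem c.2.1) hg₂H
  have hxnot : x ∉ T := fun hm => by
    obtain ⟨k, hk⟩ := hT ⟨x, hm⟩
    have := orderOf_dvd_of_pow_eq_one (congrArg Subtype.val hk : x ^ q ^ k = 1)
    rw [hx] at this
    exact hqs ((Nat.prime_dvd_prime_iff_eq hs.out hq.out).mp (hs.out.dvd_of_dvd_pow this)).symm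
  have hpowT : ∀ n : ℕ, φ y₀ ^ n * (x ^ n)⁻¹ ∈ T := by
    intro n
    induction n with
    | zero => simp
    | succ n ih =>
      have hd : φ y₀ * x⁻¹ ∈ T := by
        rw [hy₀, map_mul, map_inv, hg₂, mul_inv_cancel_right]; exact inv_mem c.2.2
      have h2 : x * (φ y₀ ^ n * (x ^ n)⁻¹) * x⁻¹ ∈ T := (Subgroup.mem_normalizer_iff.mp hxT _).mp ih
      have := mul_mem hd h2
      rw [show φ y₀ * x⁻¹ * (x * (φ y₀ ^ n * (x ^ n)⁻¹) * x⁻¹) = φ y₀ ^ (n + 1) * (x ^ (n + 1))⁻¹ by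
        rw [pow_succ' (φ y₀), pow_succ' x]; group] at this
      exact this
  -- an element of order `s^e` over it
  have hm₂ := Nat.ordProj_mul_ordCompl_eq_self (orderOf y₀) s
  set e₂ := (orderOf y₀).factorization s
  set m₂ := orderOf y₀ / s ^ e₂
  have hsm : ¬ s ∣ m₂ := Nat.not_dvd_ordCompl hs.out (orderOf_pos y₀).ne'
  set y₁ := y₀ ^ m₂ with hy₁
  have hy₁o : y₁ ^ s ^ e₂ = 1 := by rw [hy₁, ← pow_mul, mul_comm, hm₂, pow_orderOf_eq_one]
  have hy₁N : y₁ ∉ N := fun hm => by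
    have e : φ y₀ ^ m₂ = 1 := by rw [← map_pow]; exact (QuotientGroup.eq_one_iff _).mpr hm
    have h3 := hpowT m₂
    rw [e, one_mul, inv_mem_iff] at h3
    have hcop : (orderOf x).Coprime m₂ := hx ▸ (hs.out.coprime_iff_not_dvd).mpr hsm
    exact hxnot (mem_of_pow_mem hcop.symm h3)
  obtain ⟨j, hjN, hjN'⟩ : ∃ j, y₁ ^ s ^ j ∉ N ∧ (y₁ ^ s ^ j) ^ s ∈ N := by
    by_contra hc'
    push Not at hc'
    have : ∀ j, y₁ ^ s ^ j ∉ N := by
      intro j
      induction j with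
      | zero => simpa using hy₁N
      | succ j ih => rw [pow_succ, pow_mul]; exact hc' j ih
    exact this e₂ (hy₁o ▸ N.one_mem)
  set y := y₁ ^ s ^ j with hy
  have hyH : y ∈ H := pow_mem (pow_mem hy₀H _) _
  have hyQ : y ∈ Subgroup.normalizer (Q : Set G) := pow_mem (pow_mem hy₀Q _) _
  have hypow : y ^ s ^ e₂ = 1 := by rw [hy, ← pow_mul, mul_comm, pow_mul, hy₁o, one_pow]
  obtain ⟨ey, -, hey⟩ := (Nat.dvd_prime_pow hs.out).mp (orderOf_dvd_of_pow_eq_one hypow)
  have hQord : ∀ u ∈ Q, ∃ i, orderOf u = q ^ i := fun u hu => by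
    obtain ⟨i, hi⟩ := hQp ⟨u, hu⟩
    obtain ⟨i', -, hi'⟩ := (Nat.dvd_prime_pow hq.out).mp
      (orderOf_dvd_of_pow_eq_one (congrArg Subtype.val hi : u ^ q ^ i = 1))
    exact ⟨i', hi'⟩
  have haN' : a ∉ N := fun hm => haN ((QuotientGroup.eq_one_iff _).mpr hm)
  -- `y` has order `s`
  have hys : y ^ s = 1 := by
    set b := y ^ s with hb
    have hbQ : b ∈ Subgroup.normalizer (Q : Set G) := pow_mem hyQ _
    have hbo : b ^ s ^ e₂ = 1 := by rw [hb, ← pow_mul, mul_comm, pow_mul, hypow, one_pow]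
    obtain ⟨eb, -, heb⟩ := (Nat.dvd_prime_pow hs.out).mp (orderOf_dvd_of_pow_eq_one hbo)
    let S := {u : G // u ∈ Q ∧ a⁻¹ * u ∈ N}
    haveI : Fintype S := Fintype.ofFinite S
    have hstep : ∀ (z : G), z ∈ Subgroup.normalizer (Q : Set G) → z ∈ N → ∀ u : S,
        z * (u : G) * z⁻¹ ∈ Q ∧ a⁻¹ * (z * (u : G) * z⁻¹) ∈ N := fun z hzQ hzN u => by
      refine ⟨(Subgroup.mem_normalizer_iff.mp hzQ _).mp u.2.1, ?_⟩
      have h1 : (u : G)⁻¹ * z * (u : G) ∈ N := by
        simpa using (inferInstance : N.Normal).conj_mem z hzN (u : G)⁻¹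
      have := mul_mem (mul_mem u.2.2 h1) (inv_mem hzN)
      rwa [show a⁻¹ * (u : G) * ((u : G)⁻¹ * z * (u : G)) * z⁻¹ = a⁻¹ * (z * (u : G) * z⁻¹) by group] at this
    let f : Subgroup.zpowers b → Equiv.Perm S := fun z =>
      { toFun := fun u => ⟨_, hstep z ((Subgroup.zpowers_le.mpr hbQ) z.2) ((Subgroup.zpowers_le.mpr hjN') z.2) u⟩
        invFun := fun u => ⟨_, hstep (z : G)⁻¹ (inv_mem ((Subgroup.zpowers_le.mpr hbQ) z.2))
          (inv_mem ((Subgroup.zpowers_le.mpr hjN') z.2)) u⟩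
        left_inv := fun u => Subtype.ext (by show (z : G)⁻¹ * ((z : G) * u * (z : G)⁻¹) * ((z : G)⁻¹)⁻¹ = u; group)
        right_inv := fun u => Subtype.ext (by show (z : G) * ((z : G)⁻¹ * u * ((z : G)⁻¹)⁻¹) * (z : G)⁻¹ = u; group) }
    let F : Subgroup.zpowers b →* Equiv.Perm S :=
      { toFun := f
        map_one' := Equiv.ext fun u => Subtype.ext (by show (1 : G) * u * (1 : G)⁻¹ = u; group)
        map_mul' := fun z w => Equiv.ext fun u => Subtype.ext (by
          show (z * w : G) * u * (z * w : G)⁻¹ = (z : G) * ((w : G) * u * (w : G)⁻¹) * (z : G)⁻¹; group) }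
    have hcard : Fintype.card S = Nat.card ↥(Q ⊓ N) := by
      rw [← Nat.card_eq_fintype_card]
      refine Nat.card_congr
        { toFun := fun u => ⟨a⁻¹ * u, Q.mul_mem (Q.inv_mem haQ) u.2.1, u.2.2⟩
          invFun := fun w => ⟨a * w, Q.mul_mem haQ w.2.1, by rw [inv_mul_cancel_left]; exact w.2.2⟩
          left_inv := fun u => Subtype.ext (mul_inv_cancel_left _ _)
          right_inv := fun w => Subtype.ext (inv_mul_cancel_left _ _) }
    have hnd : ¬ s ∣ Fintype.card S := by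
      rw [hcard]
      intro hd
      obtain ⟨n, hn⟩ := (hQp.to_le inf_le_left : IsPGroup q ↥(Q ⊓ N)).exists_card_eq
      rw [hn] at hd
      exact hqs ((Nat.prime_dvd_prime_iff_eq hs.out hq.out).mp (hs.out.dvd_of_dvd_pow hd)).symm
    have hσ : (F ⟨b, Subgroup.mem_zpowers b⟩) ^ s ^ e₂ = 1 := by
      rw [← map_pow, show (⟨b, Subgroup.mem_zpowers b⟩ : Subgroup.zpowers b) ^ s ^ e₂ = 1 from Subtype.ext hbo,
        map_one]
    obtain ⟨u, hu⟩ := Equiv.Perm.exists_fixed_point_of_prime hnd hσ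
    have hu' : b * (u : G) * b⁻¹ = u := congrArg Subtype.val hu
    have huN : (u : G) ∉ N := fun hm => haN' (by
      simpa using N.inv_mem (N.mul_mem u.2.2 (N.inv_mem hm)))
    obtain ⟨i, hi⟩ := hQord u u.2.1
    exact mixed h hq.out hs.out hqs huN hi heb (mul_inv_eq_iff_eq_mul.mp hu').symm
  have hyQfix : ∀ u ∈ Q, y * u * y⁻¹ = u → u = 1 := fun u hu e => by
    obtain ⟨i, hi⟩ := hQord u hu
    exact mixed h hs.out hq.out hqs.symm hjN hey hi (mul_inv_eq_iff_eq_mul.mp e)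
  -- the module: the centre of `R`
  set Z : Subgroup G := (Subgroup.center R).map R.subtype with hZ
  have hZR : Z ≤ R := Subgroup.map_subtype_le _
  haveI : IsMulCommutative ↥Z := by
    constructor; constructor
    rintro ⟨_, a', ha', rfl⟩ ⟨_, b', hb', rfl⟩
    exact Subtype.ext (congrArg (fun k : R => (k : G)) (Subgroup.mem_center_iff.mp hb' a'))
  have hHZ : H ≤ Subgroup.normalizer (Z : Set G) := by
    intro g hg
    refine Subgroup.mem_normalizer_fintype (S := (Z : Set G)) ?_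
    rintro _ ⟨z, hz, rfl⟩
    refine ⟨⟨g * z * g⁻¹, (Subgroup.mem_normalizer_iff.mp hg _).mp z.2⟩, ?_, rfl⟩
    rw [SetLike.mem_coe, Subgroup.mem_center_iff]
    intro w
    have hw : g⁻¹ * w * g ∈ R := by
      simpa using (Subgroup.mem_normalizer_iff.mp (inv_mem hg) (w : G)).mp w.2
    have := congrArg Subtype.val (Subgroup.mem_center_iff.mp hz ⟨_, hw⟩)
    apply Subtype.ext
    show (w : G) * (g * z * g⁻¹) = g * z * g⁻¹ * w
    have := congrArg (fun k => g * k * g⁻¹) this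
    simpa [mul_assoc] using this
  have hRp : IsPGroup r R := R₀.isPGroup'.map _
  have hfix : ∀ g : G, g ∉ N → ∀ p i : ℕ, p.Prime → p ≠ r → orderOf g = p ^ i →
      ∀ v ∈ Z, g * v * g⁻¹ = v → v = 1 := fun g hgN p i hp hpr hgo v hv e => by
    obtain ⟨k, hk⟩ := hRp ⟨v, hZR hv⟩
    obtain ⟨k', -, hk'⟩ := (Nat.dvd_prime_pow hr).mp
      (orderOf_dvd_of_pow_eq_one (congrArg Subtype.val hk : v ^ r ^ k = 1))
    exact mixed h hp hr hpr hgN hgo hk' (mul_inv_eq_iff_eq_mul.mp e)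
  set L := Subgroup.normalizer (Z : Set G) with hL
  obtain ⟨iu, hiu⟩ := hQord a haQ
  letI : CommGroup ↥Z := { (inferInstance : Group ↥Z) with mul_comm := fun a b => mul_comm' a b }
  have key := pow_card_eq_one (G := ↥L) (V := ↥Z) (Subgroup.normalizerMonoidHom Z) (Q.subgroupOf L)
    ⟨y, hHZ hyH⟩ hs.out (Subtype.ext hys)
    (fun u hu => (Subgroup.mem_normalizer_iff.mp hyQ _).mp hu)
    (fun u hu e => Subtype.ext (hyQfix _ hu (congrArg Subtype.val e)))
    (fun v e => Subtype.ext (hfix y hjN s ey hs.out hrs.symm hey v v.2 (congrArg Subtype.val e)))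
    (u0 := ⟨a, hHZ haU.1⟩) haQ
    (fun v e => Subtype.ext (hfix a haN' q iu hq.out hrq.symm hiu v v.2 (congrArg Subtype.val e)))
  obtain ⟨n, hn⟩ := hQp.exists_card_eq
  rw [Nat.card_congr (Subgroup.subgroupOfEquivOfLe (hQU.trans (inf_le_left.trans hHZ))).toEquiv, hn] at key
  haveI : Nontrivial R := by
    rw [← Finite.one_lt_card_iff_nontrivial, hR, Subgroup.card_map_of_injective N.subtype_injective]
    exact Finite.one_lt_card_iff_nontrivial.mpr
      ((Subgroup.nontrivial_iff_ne_bot _).mpr (R₀.ne_bot_of_dvd_card hrN))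
  haveI := hRp.center_nontrivial
  obtain ⟨z, hz⟩ := exists_ne (1 : Subgroup.center R)
  set v : Z := ⟨((z : R) : G), z, z.2, rfl⟩ with hv
  have hv1 : v ≠ 1 := fun e => hz (Subtype.ext (Subtype.ext (congrArg (fun w : Z => (w : G)) e)))
  have hZp : IsPGroup r Z := hRp.to_le hZR
  obtain ⟨k, hk⟩ := hZp v
  have hcop : (r ^ k).Coprime (q ^ n) := Nat.Coprime.pow _ _ ((Nat.coprime_primes hr hq.out).mpr hrq)
  have := pow_gcd_eq_one.mpr ⟨hk, key v⟩
  rw [hcop.gcd_eq_one, pow_one] at this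
  exact hv1 this

/-- A group in which no non-trivial `q`-subgroup is normalised by an element of another prime order is a
`p`-group. -/
theorem isSolvable_of_no_normalise {X : Type*} [Group X] [Finite X]
    (hX : ∀ (q s : ℕ) [Fact q.Prime] [Fact s.Prime], q ≠ s → ∀ T : Subgroup X, IsPGroup q T → T ≠ ⊥ →
      ∀ x : X, orderOf x = s → x ∈ Subgroup.normalizer (T : Set X) → False) : Group.IsSolvable X := by
  rcases eq_or_ne (Nat.card X) 1 with h1 | h1
  · haveI := (Nat.card_eq_one_iff_unique.mp h1).1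
    infer_instance
  obtain ⟨p, hp, hpX⟩ := Nat.exists_prime_and_dvd h1
  haveI : Fact p.Prime := ⟨hp⟩
  have hlt : CfsgLib.Transfer.LocallyTrivial p X := by
    intro Q hQ g hg ho
    rcases eq_or_ne Q ⊥ with rfl | hQ1
    · rw [Subgroup.mem_centralizer_iff]; intro w hw
      rw [Subgroup.coe_bot, Set.mem_singleton_iff] at hw
      simp [hw]
    rcases eq_or_ne g 1 with rfl | hg1
    · exact one_mem _
    obtain ⟨s, hs, hsg⟩ := Nat.exists_prime_and_dvd (mt orderOf_eq_one_iff.mp hg1)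
    haveI : Fact s.Prime := ⟨hs⟩
    have hps : p ≠ s := fun e => hs.not_dvd_one (ho ▸ Nat.dvd_gcd hsg (e ▸ dvd_rfl))
    refine (hX p s hps Q hQ hQ1 (g ^ (orderOf g / s)) ?_ (pow_mem hg _)).elim
    exact orderOf_pow_orderOf_div (orderOf_pos g).ne' hsg
  obtain ⟨P, K, hK, hKP⟩ := CfsgLib.Transfer.frobenius_normal_complement hlt
  rcases eq_or_ne K ⊥ with rfl | hK1
  · rw [Subgroup.isComplement'_bot_left] at hKP
    haveI : Group.IsNilpotent X := by
      refine IsPGroup.isNilpotent (p := p) ?_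
      intro g
      obtain ⟨k, hk⟩ := P.isPGroup' ⟨g, hKP ▸ Subgroup.mem_top g⟩
      exact ⟨k, congrArg Subtype.val hk⟩
    infer_instance
  exfalso
  haveI := hK
  have hKcard : Nat.card K ≠ 1 := fun e => hK1 (Subgroup.card_eq_one.mp e)
  obtain ⟨s, hs, hsK⟩ := Nat.exists_prime_and_dvd hKcard
  haveI : Fact s.Prime := ⟨hs⟩
  have hpK : ¬ p ∣ Nat.card K := by
    rw [← Subgroup.IsComplement'.index_eq_card hKP]
    exact P.not_dvd_index
  have hps : p ≠ s := fun e => hpK (e ▸ hsK)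
  obtain ⟨S⟩ := (inferInstance : Nonempty (Sylow s K))
  have hsup := Sylow.normalizer_sup_eq_top S
  set M := Subgroup.normalizer (((S : Subgroup K).map K.subtype : Subgroup X) : Set X)
  have hdvd : Nat.card X ∣ Nat.card M * Nat.card K := by
    have h2 : K.index ∣ Nat.card M := by
      have h3 := Subgroup.relIndex_sup_right (H := M) (K := K)
      rw [hsup, Subgroup.relIndex_top_right] at h3
      rw [h3]
      exact Dvd.intro_left _ (Subgroup.card_mul_index (K.subgroupOf M))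
    rw [← K.card_mul_index, mul_comm (Nat.card M)]
    exact mul_dvd_mul_left _ h2
  rcases hp.dvd_mul.mp (hpX.trans hdvd) with hd | hd
  · obtain ⟨x, hx⟩ := exists_prime_orderOf_dvd_card' p hd
    refine hX s p hps.symm _ (S.isPGroup'.map _) ?_ x (by rw [Subgroup.orderOf_coe]; exact hx) x.2
    rw [Ne, Subgroup.map_eq_bot_iff_of_injective _ K.subtype_injective]
    exact S.ne_bot_of_dvd_card hsK
  · exact hpK hd

end CfsgLib.CPOutside
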